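import Mathlib
import Cfsg.Agent.CharBasics.CyclicTI
import Cfsg.Agent.BrauerReynolds.Tools
import Cfsg.Agent.Clifford.LinChar

/-!
A perfect group of odd order has no involutory automorphism with abelian fixed points which are self-centralizing
outside two proper subgroups.
-/

set_option autoImplicit false
set_option linter.unusedSectionVars false
set_option linter.style.haveILetI false

namespace CfsgLib.GHFour

open Cfsg CfsgLib.CharBasics CfsgLib.CyclicTI
open scoped ComplexConjugate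

universe u

variable {Γ : Type u} [Group Γ] [Finite Γ]

/-- An inner product of a character with a linear character is an integer. -/
theorem inner_hom_nat {H : Type*} [Group H] [Fintype H] {χ : H → ℂ} (hχ : IsCharacter H χ) (ν : H →* ℂˣ) :
    ∃ m : ℕ, classInner χ (fun h => (ν h : ℂ)) = m :=
  classInner_characters_nat hχ (CfsgLib.Clifford.isCharacter_of_hom ((Units.coeHom ℂ).comp ν))

theorem four_identity {a b c : ℤ} (ha : a ≠ -1) (hb : b ≠ -1) (hc : c ≠ -1) (ha0 : a ≠ 0) (hb0 : b ≠ 0)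
    (hc0 : c ≠ 0) (h1 : (1 : ℂ) + a + b + c = 0) (h2 : (1 : ℂ) + (a : ℂ)⁻¹ + (b : ℂ)⁻¹ + (c : ℂ)⁻¹ = 0) :
    False := by
  have hac : (a : ℂ) ≠ 0 := Int.cast_ne_zero.2 ha0
  have hbc : (b : ℂ) ≠ 0 := Int.cast_ne_zero.2 hb0
  have hcc : (c : ℂ) ≠ 0 := Int.cast_ne_zero.2 hc0
  have h3 : (a : ℂ) * b * c + b * c + a * c + a * b = 0 := by
    have := congrArg (fun z => (a : ℂ) * b * c * z) h2
    simp only [mul_zero] at this
    rw [← this]
    field_simp
    try ring
  have h4 : ((a + 1) * (b + 1) * (c + 1) : ℤ) = 0 := by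
    have : (((a + 1) * (b + 1) * (c + 1) : ℤ) : ℂ) = 0 := by
      push_cast
      linear_combination h3 + h1
    exact_mod_cast this
  rcases mul_eq_zero.1 h4 with h | h
  · rcases mul_eq_zero.1 h with h' | h' <;> omega
  · omega

theorem false_of_data (L : Subgroup Γ) (hidx : L.index = 2) (hodd : Odd (Nat.card L))
    (hperf : ⁅L, L⁆ = L) (t : Γ) (htL : t ∉ L) (ht2 : t * t = 1)
    (H : Subgroup Γ) (hH : ∀ g, g ∈ H ↔ g * t = t * g) (hHcomm : ∀ x ∈ H, ∀ y ∈ H, x * y = y * x)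
    (Λ Μ : H →* ℂˣ) (hΛt : Λ ⟨t, (hH t).2 rfl⟩ = 1) (hΜt : Μ ⟨t, (hH t).2 rfl⟩ = 1)
    (hΛ : Λ ≠ 1) (hΜ : Μ ≠ 1) (hne : Λ ≠ Μ) (hmul : Λ * Μ ≠ 1)
    (hti : ∀ h : H, Λ h ≠ 1 → Μ h ≠ 1 → ∀ g : Γ, g * h * g⁻¹ ∈ H → g ∈ H) : False := by
  classical
  haveI := Fintype.ofFinite Γ
  haveI := Fintype.ofFinite H
  haveI : Fintype (IrrCharacter Γ) := Fintype.ofFinite _
  haveI : IsMulCommutative H := ⟨⟨fun a b => Subtype.ext (hHcomm a a.2 b b.2)⟩⟩
  letI : CommGroup H :=
    { (inferInstance : Group H) with mul_comm := fun a b => Subtype.ext (hHcomm a a.2 b b.2) }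
  let tH : H := ⟨t, (hH t).2 rfl⟩
  have hL2 := fun a b : Γ => Subgroup.mul_mem_iff_of_index_two hidx (a := a) (b := b)
  have htinv : t⁻¹ = t := inv_eq_of_mul_eq_one_right ht2
  have hoddpow : ∀ a ∈ L, ∀ n : ℕ, a ^ n = 1 → Even n → a ^ (n / 2) = 1 := by
    intro a ha n hn he
    have ho : Odd (orderOf a) := hodd.of_dvd_nat (L.orderOf_dvd_natCard ha)
    rw [← orderOf_dvd_iff_pow_eq_one] at hn ⊢
    have : orderOf a ∣ 2 * (n / 2) := by rwa [Nat.two_mul_div_two_of_even he]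
    exact (Nat.coprime_two_right.2 ho).dvd_of_dvd_mul_left this
  -- the sign
  let s : Γ →* ℂ :=
    { toFun := fun g => if g ∈ L then 1 else -1
      map_one' := if_pos (one_mem L)
      map_mul' := fun a b => by
        by_cases ha : a ∈ L <;> by_cases hb : b ∈ L <;> simp [hL2, ha, hb] }
  have hsL : ∀ g ∈ L, s g = 1 := fun g hg => if_pos hg
  have hsn : ∀ g ∉ L, s g = -1 := fun g hg => if_neg hg
  have hss : ∀ g, s g * s g = 1 := fun g => by
    by_cases hg : g ∈ L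
    · rw [hsL g hg, one_mul]
    · rw [hsn g hg, neg_mul_neg, one_mul]
  let σ : IrrCharacter Γ → IrrCharacter Γ := fun ψ =>
    ⟨fun g => s g * (ψ : Γ → ℂ) g, CfsgLib.Clifford.isIrrCharacter_linear_mul ψ.2 s⟩
  let sH : H →* ℂˣ := (s.comp H.subtype).toHomUnits
  have hsH : ∀ h : H, (sH h : ℂ) = s h := fun h => MonoidHom.coe_toHomUnits _ h
  -- the two coefficients
  let R : IrrCharacter Γ → H → ℂ := fun ψ h => (ψ : Γ → ℂ) h
  have hRc : ∀ ψ, IsCharacter H (R ψ) := fun ψ => isCharacter_restrict (isCharacter_of_irr ψ.2) H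
  let mC : IrrCharacter Γ → (H →* ℂˣ) → ℂ := fun ψ ν => classInner (R ψ) (fun h => (ν h : ℂ))
  let M : IrrCharacter Γ → (H →* ℂˣ) → ℂ := fun ψ ν => mC ψ ν - mC ψ (ν * sH)
  have hMint : ∀ ψ ν, ∃ k : ℤ, M ψ ν = k := fun ψ ν => by
    obtain ⟨a, ha⟩ := inner_hom_nat (hRc ψ) ν
    obtain ⟨b, hb⟩ := inner_hom_nat (hRc ψ) (ν * sH)
    exact ⟨(a : ℤ) - b, by simp only [M, mC, ha, hb]; push_cast; rfl⟩
  set N : ℂ := (Nat.card H : ℂ) with hN
  have hN0 : N ≠ 0 := Nat.cast_ne_zero.2 Nat.card_pos.ne'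
  have hMsum : ∀ ψ ν, M ψ ν = N⁻¹ * (2 * ∑ h : H, if (h : Γ) ∈ L then 0 else R ψ h * conj (ν h : ℂ)) := by
    intro ψ ν
    simp only [M, mC, classInner_eq, ← mul_sub, ← Finset.sum_sub_distrib, Finset.mul_sum]
    refine Finset.sum_congr rfl fun h _ => ?_
    rw [MonoidHom.mul_apply, Units.val_mul, hsH]
    split_ifs with hh
    · rw [hsL _ hh, mul_one, sub_self]; ring
    · rw [hsn _ hh, mul_neg_one, map_neg]; ring
  have hMσ : ∀ ψ ν, M (σ ψ) ν = -M ψ ν := by
    intro ψ ν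
    rw [hMsum, hMsum, ← mul_neg, ← mul_neg, ← Finset.sum_neg_distrib]
    congr 2
    refine Finset.sum_congr rfl fun h _ => ?_
    split_ifs with hh
    · rw [neg_zero]
    · show s h * (ψ : Γ → ℂ) h * _ = _
      rw [hsn _ hh]; ring
  -- column orthogonality outside `L`
  have hcol : ∀ h k : H, (h : Γ) ∉ L → (k : Γ) ∉ L →
      ∑ ψ : IrrCharacter Γ, R ψ h * conj (R ψ k) = if h = k then N else 0 := by
    intro h k hh hk
    -- `t` is a power of every element of `H` outside `L`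
    have hpw : ∀ x : H, (x : Γ) ∉ L → (x : Γ) ^ Nat.card L = t := by
      intro x hx
      have hc : Commute ((x : Γ) * t) t := by
        have := (hH x).1 x.2
        exact Commute.mul_left this rfl
      have hxa : (x : Γ) = (x : Γ) * t * t := by rw [mul_assoc, ht2, mul_one]
      have haL : (x : Γ) * t ∈ L := (hL2 _ _).2 (by simp [hx, htL])
      have hte : t ^ Nat.card L = t := by
        obtain ⟨j, hj⟩ := hodd
        rw [hj, pow_succ, pow_mul, pow_two, ht2, one_pow, one_mul]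
      have h1 : ((x : Γ) * t) ^ Nat.card L = 1 :=
        orderOf_dvd_iff_pow_eq_one.1 (L.orderOf_dvd_natCard haL)
      rw [hxa, hc.mul_pow, h1, hte, one_mul]
    have hconj : ∀ (x y : H) (g : Γ), (x : Γ) ∉ L → (y : Γ) ∉ L → g * x * g⁻¹ = y → g ∈ H := by
      intro x y g hx hy e
      have h2 := congrArg (fun z : Γ => z ^ Nat.card L) e
      simp only [conj_pow, hpw x hx, hpw y hy] at h2
      exact (hH g).2 (mul_inv_eq_iff_eq_mul.1 h2)
    rw [sum_col (h : Γ) (k : Γ)]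
    by_cases e : h = k
    · rw [if_pos (e ▸ IsConj.refl _), if_pos e, hN, Nat.cast_inj]
      congr 1
      congr 1
      ext g
      rw [Subgroup.mem_centralizer_singleton_iff]
      exact ⟨fun hg => hconj h h g hh hh (by rw [hg, mul_inv_cancel_right]), fun hg => hHcomm g hg h h.2⟩
    · rw [if_neg e, if_neg]
      intro hc
      obtain ⟨g, hg⟩ := isConj_iff.1 hc
      apply e
      have hgH := hconj h k g hh hk hg
      exact Subtype.ext (by rw [← hg, hHcomm g hgH h h.2, mul_inv_cancel_right])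
  have horth : ∀ ν ν' : H →* ℂˣ, ν tH = 1 → ν' tH = 1 →
      ∑ ψ, M ψ ν * conj (M ψ ν') = if ν = ν' then 2 else 0 := by
    intro ν ν' hν hν'
    let F : H → ℂ := fun h => if (h : Γ) ∈ L then 0 else conj (ν h : ℂ) * (ν' h : ℂ)
    have h1 : ∑ ψ, M ψ ν * conj (M ψ ν') = N⁻¹ * N⁻¹ * 4 * (N * ∑ h : H, F h) := by
      simp only [hMsum, map_mul, map_inv₀, map_ofNat, hN, Complex.conj_natCast, map_sum]
      rw [← hN]
      have : ∀ ψ : IrrCharacter Γ,
          N⁻¹ * (2 * ∑ h : H, if (h : Γ) ∈ L then 0 else R ψ h * conj (ν h : ℂ)) *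
            (N⁻¹ * (2 * ∑ h : H, conj (if (h : Γ) ∈ L then 0 else R ψ h * conj (ν' h : ℂ)))) =
          N⁻¹ * N⁻¹ * 4 * ∑ h : H, ∑ k : H, (if (h : Γ) ∈ L then 0 else if (k : Γ) ∈ L then 0 else
            conj (ν h : ℂ) * (ν' k : ℂ) * (R ψ h * conj (R ψ k))) := by
        intro ψ
        rw [show ∀ a b c d : ℂ, a * (2 * b) * (c * (2 * d)) = a * c * 4 * (b * d) from fun a b c d => by ring,
          Finset.sum_mul_sum]
        congr 1
        refine Finset.sum_congr rfl fun h _ => Finset.sum_congr rfl fun k _ => ?_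
        split_ifs <;> simp <;> ring
      simp only [this, ← Finset.mul_sum]
      congr 1
      rw [Finset.mul_sum, Finset.sum_comm]
      refine Finset.sum_congr rfl fun h _ => ?_
      rw [Finset.sum_comm]
      by_cases hh : (h : Γ) ∈ L
      · simp [F, hh]
      · rw [Finset.sum_eq_single h]
        · simp only [if_neg hh, F, ← Finset.mul_sum, hcol h h hh hh, if_pos]
          ring
        · intro k _ hk
          by_cases hkL : (k : Γ) ∈ L
          · simp [hh, hkL]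
          · simp only [if_neg hh, if_neg hkL, ← Finset.mul_sum, hcol h k hh hkL, if_neg (Ne.symm hk), mul_zero]
        · simp
    have h2 : ∑ h : H, F h = 2⁻¹ * (N * if ν = ν' then 1 else 0) := by
      have h3 : ∀ h : H, F h = 2⁻¹ * ((ν' h : ℂ) * conj (ν h : ℂ) - (ν' h : ℂ) * conj ((ν * sH) h : ℂ)) := by
        intro h
        simp only [F, MonoidHom.mul_apply, Units.val_mul, hsH]
        split_ifs with hh
        · rw [hsL _ hh]; ring
        · rw [hsn _ hh, mul_neg_one, map_neg]; ring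
      have hi : ∀ μ : H →* ℂˣ, ∑ h : H, (ν' h : ℂ) * conj (μ h : ℂ) = N * (if ν' = μ then 1 else 0) := by
        intro μ
        rw [← inner_hom ν' μ, classInner_eq, ← mul_assoc, ← hN, mul_inv_cancel₀ hN0, one_mul]
      have hne' : ν' ≠ ν * sH := by
        intro e
        have := congrArg (fun f : H →* ℂˣ => (f tH : ℂ)) e
        simp only [MonoidHom.mul_apply, hν, hν', one_mul, Units.val_one, hsH] at this
        rw [hsn t htL] at this
        norm_num at this
      simp only [h3, ← Finset.mul_sum, Finset.sum_sub_distrib, hi, if_neg hne', mul_zero, sub_zero, eq_comm]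
    rw [h1, h2]
    split_ifs
    · field_simp; ring
    · ring
  -- each column is supported on a single pair
  have hsingle : ∀ ψ ν, ν tH = 1 → M ψ ν ≠ 0 →
      (M ψ ν = 1 ∨ M ψ ν = -1) ∧ ∀ ν' : H →* ℂˣ, ν' tH = 1 → ν' ≠ ν → M ψ ν' = 0 := by
    intro ψ ν hν h0
    have hσne : σ ψ ≠ ψ := fun e => h0 (by
      have := hMσ ψ ν; rw [e] at this; linear_combination (1 / 2 : ℂ) * this)
    choose k hk using fun φ => hMint φ ν
    have hsq : ∑ φ, k φ * k φ = 2 := by
      have := horth ν ν hν hν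
      simp only [hk, map_intCast, if_pos] at this
      exact_mod_cast this
    have hkσ : k (σ ψ) = -k ψ := by
      have := hMσ ψ ν
      rw [hk, hk] at this
      exact_mod_cast this
    have hk0 : k ψ ≠ 0 := fun e => h0 (by rw [hk, e, Int.cast_zero])
    rw [← Finset.add_sum_erase _ _ (Finset.mem_univ ψ),
      ← Finset.add_sum_erase _ _ (Finset.mem_erase.2 ⟨hσne, Finset.mem_univ (σ ψ)⟩), hkσ, neg_mul_neg] at hsq
    have hpos : 0 ≤ ∑ φ ∈ (Finset.univ.erase ψ).erase (σ ψ), k φ * k φ :=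
      Finset.sum_nonneg fun φ _ => mul_self_nonneg _
    have hk1 : 1 ≤ k ψ * k ψ := mul_self_pos.2 hk0
    have hk2 : k ψ = 1 ∨ k ψ = -1 := mul_self_eq_one_iff.1 (by omega)
    have hrest : ∀ φ, φ ≠ ψ → φ ≠ σ ψ → k φ = 0 := fun φ h1 h2 => mul_self_eq_zero.1
      ((Finset.sum_eq_zero_iff_of_nonneg fun φ _ => mul_self_nonneg (k φ)).1 (by omega) φ
        (Finset.mem_erase.2 ⟨h2, Finset.mem_erase.2 ⟨h1, Finset.mem_univ φ⟩⟩))
    refine ⟨by rw [hk]; rcases hk2 with e | e <;> simp [e], fun ν' hν' hne' => ?_⟩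
    have h := horth ν ν' hν hν'
    rw [if_neg (Ne.symm hne'), ← Finset.add_sum_erase _ _ (Finset.mem_univ ψ),
      ← Finset.add_sum_erase _ _ (Finset.mem_erase.2 ⟨hσne, Finset.mem_univ (σ ψ)⟩),
      Finset.sum_eq_zero fun φ hφ => ?_] at h
    · rw [hMσ, hMσ, map_neg, neg_mul_neg, add_zero, ← two_mul, mul_eq_zero, or_iff_right two_ne_zero,
        mul_eq_zero, or_iff_right h0, map_eq_zero] at h
      exact h
    · obtain ⟨h2, h1, -⟩ : φ ≠ σ ψ ∧ φ ≠ ψ ∧ True := by simpa using hφ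
      rw [hk, hrest φ h1 h2, Int.cast_zero, zero_mul]
  -- the value at `t`
  haveI : Fintype (TrivOn (Subgroup.zpowers tH)) := Fintype.ofFinite _
  have htriv : ∀ ν : H →* ℂˣ, (∀ b ∈ Subgroup.zpowers tH, ν b = 1) ↔ ν tH = 1 := by
    refine fun ν => ⟨fun h => h _ (Subgroup.mem_zpowers _), fun h b hb => ?_⟩
    obtain ⟨i, rfl⟩ := Subgroup.mem_zpowers_iff.1 hb
    rw [map_zpow, h, one_zpow]
  have hMt : ∀ ψ, ∑ ν : TrivOn (Subgroup.zpowers tH), M ψ ν.1 =
      N⁻¹ * 2 * (Nat.card (TrivOn (Subgroup.zpowers tH)) : ℂ) * (ψ : Γ → ℂ) t := by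
    intro ψ
    simp only [hMsum, ← Finset.mul_sum]
    rw [Finset.sum_comm, Finset.sum_eq_single tH]
    · simp only [tH, if_neg htL]
      rw [Finset.sum_congr rfl (g := fun _ => (ψ : Γ → ℂ) t) (fun ν _ => by
        rw [(htriv ν.1).1 ν.2, Units.val_one, map_one, mul_one]), Finset.sum_const, Finset.card_univ,
        nsmul_eq_mul, Nat.card_eq_fintype_card]
      ring
    · intro h _ hne'
      by_cases hh : (h : Γ) ∈ L
      · simp [hh]
      · simp only [if_neg hh, ← Finset.mul_sum, ← map_sum, sum_trivOn]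
        rw [if_neg, map_zero, mul_zero]
        intro hz
        obtain ⟨i, hi⟩ := Subgroup.mem_zpowers_iff.1 hz
        rcases Int.even_or_odd i with ⟨j, rfl⟩ | ⟨j, rfl⟩
        · refine hh ?_
          rw [← hi, zpow_add, ← mul_zpow]
          rw [show tH * tH = 1 from Subtype.ext ht2, one_zpow]
          exact one_mem L
        · refine hne' ?_
          rw [← hi, zpow_add_one, zpow_mul, zpow_two, show tH * tH = 1 from Subtype.ext ht2, one_zpow, one_mul]
    · simp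
  have hval : ∀ ψ ν, ν tH = 1 → M ψ ν ≠ 0 → (ψ : Γ → ℂ) t = M ψ ν := by
    have hred : ∀ ψ ν, (hν : ν tH = 1) → (∀ ν', ν' tH = 1 → ν' ≠ ν → M ψ ν' = 0) →
        M ψ ν = N⁻¹ * 2 * (Nat.card (TrivOn (Subgroup.zpowers tH)) : ℂ) * (ψ : Γ → ℂ) t := by
      intro ψ ν hν h0
      rw [← hMt, Finset.sum_eq_single (⟨ν, (htriv ν).2 hν⟩ : TrivOn (Subgroup.zpowers tH))]
      · exact fun μ _ hμ => h0 μ.1 ((htriv μ.1).1 μ.2) fun e => hμ (Subtype.ext e)
      · simp
    have hM1 : ∀ ν : H →* ℂˣ, M oneChar ν = (if (1 : H →* ℂˣ) = ν then 1 else 0) -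
        (if (1 : H →* ℂˣ) = ν * sH then 1 else 0) := fun ν => by
      simp only [M, mC, ← inner_hom]
      rfl
    have hsne : ∀ ν : H →* ℂˣ, ν tH = 1 → (1 : H →* ℂˣ) ≠ ν * sH := fun ν hν e => by
      have := congrArg (fun f : H →* ℂˣ => (f tH : ℂ)) e
      simp only [MonoidHom.mul_apply, MonoidHom.one_apply, hν, one_mul, Units.val_one, hsH] at this
      rw [hsn t htL] at this
      norm_num at this
    have hc : N⁻¹ * 2 * (Nat.card (TrivOn (Subgroup.zpowers tH)) : ℂ) = 1 := by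
      have := hred oneChar 1 rfl fun ν' hν' hne' => by
        rw [hM1, if_neg (Ne.symm hne'), if_neg (hsne ν' hν'), sub_zero]
      rw [hM1, if_pos rfl, if_neg (hsne 1 rfl), sub_zero, oneChar_apply, mul_one] at this
      exact this.symm
    intro ψ ν hν h0
    rw [hred ψ ν hν (hsingle ψ ν hν h0).2, hc, one_mul]
  -- the induced function
  let θ : H → ℂ := fun h => ((Λ h : ℂ) - 1) * ((Μ h : ℂ) - 1)
  have hθne : ∀ h, θ h ≠ 0 → Λ h ≠ 1 ∧ Μ h ≠ 1 := fun h hh =>
    ⟨fun e => hh (by simp [θ, e]), fun e => hh (by simp [θ, e])⟩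
  let f : Γ → ℂ := Cfsg.indFun H θ
  have hfH : ∀ h : H, f h = θ h := by
    intro h
    by_cases hh : θ h = 0
    · simp only [f, Cfsg.indFun]
      rw [Finset.sum_eq_zero fun x _ => ?_, mul_zero, hh]
      by_cases hm : x⁻¹ * (h : Γ) * x ∈ H
      · rw [show x⁻¹ * (h : Γ) * x = ((⟨_, hm⟩ : H) : Γ) from rfl, extendByZero_coe]
        by_contra h0
        obtain ⟨h1, h2⟩ := hθne _ h0
        have hxH := hti ⟨_, hm⟩ h1 h2 x (by
          rw [show x * (x⁻¹ * (h : Γ) * x) * x⁻¹ = (h : Γ) by group]; exact h.2)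
        have e : (⟨_, hm⟩ : H) = h := Subtype.ext (by
          change x⁻¹ * (h : Γ) * x = h
          rw [mul_assoc, hHcomm h h.2 x hxH, inv_mul_cancel_left])
        exact h0 ((congrArg θ e).trans hh)
      · exact extendByZero_of_not_mem H θ hm
    · simp only [f, Cfsg.indFun]
      obtain ⟨h1, h2⟩ := hθne h hh
      have : ∀ x : Γ, extendByZero H θ (x⁻¹ * h * x) = if x ∈ H then θ h else 0 := by
        intro x
        split_ifs with hx
        · rw [mul_assoc, hHcomm h h.2 x hx, inv_mul_cancel_left, extendByZero_coe]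
        · refine extendByZero_of_not_mem H θ fun hm => hx ?_
          exact (inv_mem_iff (H := H)).1 (hti h h1 h2 x⁻¹ (by rwa [inv_inv]))
      simp only [this, ← Finset.sum_filter, Finset.sum_const, nsmul_eq_mul]
      rw [← mul_assoc, show ((Finset.univ.filter fun x : Γ => x ∈ H).card : ℂ) = N by
        rw [hN, Nat.card_eq_fintype_card, Fintype.card_subtype]]
      rw [inv_mul_cancel₀ hN0, one_mul]
  let e : IrrCharacter Γ → ℂ := fun ψ => classInner f (ψ : Γ → ℂ)
  have hfexp : ∀ x, ∑ ψ, e ψ * (ψ : Γ → ℂ) x = f x := fun x => by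
    conv_rhs => rw [classFun_expand (f := f) (isClassFunction_indFun H θ)]
    simp [e]
  have heθ : ∀ ψ, e ψ = classInner θ (R ψ) := fun ψ =>
    classInner_indFun H θ (isClassFunction (isCharacter_of_irr ψ.2))
  have hθexp : θ = fun h => ((Λ * Μ) h : ℂ) + ((-1 : ℂ) * (Λ h : ℂ) + ((-1 : ℂ) * (Μ h : ℂ) + ((1 : H →* ℂˣ) h : ℂ))) := by
    funext h; simp [θ]; ring
  have hθinner : ∀ g : H → ℂ, classInner θ g = classInner (fun h => ((Λ * Μ) h : ℂ)) g -
      classInner (fun h => (Λ h : ℂ)) g - classInner (fun h => (Μ h : ℂ)) g +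
      classInner (fun h => ((1 : H →* ℂˣ) h : ℂ)) g := by
    intro g
    simp only [classInner_eq, ← mul_sub, ← mul_add, ← Finset.sum_sub_distrib, ← Finset.sum_add_distrib]
    congr 1
    refine Finset.sum_congr rfl fun h _ => ?_
    rw [congrFun hθexp h]; ring
  have heint : ∀ ψ, ∃ k : ℤ, e ψ = k := by
    intro ψ
    have hn : ∀ ν : H →* ℂˣ, ∃ m : ℕ, classInner (fun h => (ν h : ℂ)) (R ψ) = m := fun ν =>
      classInner_characters_nat (CfsgLib.Clifford.isCharacter_of_hom ((Units.coeHom ℂ).comp ν)) (hRc ψ)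
    obtain ⟨a, ha⟩ := hn (Λ * Μ)
    obtain ⟨b, hb⟩ := hn Λ
    obtain ⟨c, hc⟩ := hn Μ
    obtain ⟨d, hd⟩ := hn 1
    exact ⟨(a : ℤ) - b - c + d, by rw [heθ, hθinner, ha, hb, hc, hd]; push_cast; rfl⟩
  choose k hk using heint
  have hΛΜ1 : Λ * Μ ≠ Λ := fun h => hΜ (mul_left_cancel (a := Λ) (h.trans (mul_one Λ).symm))
  have hΛΜ2 : Λ * Μ ≠ Μ := fun h => hΛ (mul_right_cancel (b := Μ) (h.trans (one_mul Μ).symm))
  have hθν : ∀ ν : H →* ℂˣ, classInner θ (fun h => (ν h : ℂ)) = (if Λ * Μ = ν then 1 else 0) -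
      (if Λ = ν then 1 else 0) - (if Μ = ν then 1 else 0) + (if (1 : H →* ℂˣ) = ν then 1 else 0) := fun ν => by
    rw [hθinner, inner_hom, inner_hom, inner_hom, inner_hom]
  have hfne : classInner f f = 4 := by
    rw [classInner_indFun H θ (isClassFunction_indFun H θ)]
    rw [show (fun h : H => Cfsg.indFun H θ h) = θ from funext hfH]
    rw [hθinner]
    have hc : ∀ ν : H →* ℂˣ, classInner (fun h => (ν h : ℂ)) θ =
        conj (classInner θ (fun h => (ν h : ℂ))) := fun ν => classInner_comm _ _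
    rw [hc, hc, hc, hc]
    simp only [hθν, hΛΜ1, hΛΜ2, hne, hΛ, hΜ, hmul, Ne.symm hΛΜ1, Ne.symm hΛΜ2, Ne.symm hne, Ne.symm hΛ,
      Ne.symm hΜ, Ne.symm hmul, if_true, if_false, map_sub, map_add, map_one, map_zero]
    norm_num
  have hsq : ∑ ψ, k ψ * k ψ = 4 := by
    have h1 : classInner f f = ∑ ψ, e ψ * conj (e ψ) := by
      have := congrArg (fun g : Γ → ℂ => classInner g f) (classFun_expand (f := f) (isClassFunction_indFun H θ))
      refine this.trans ?_
      rw [classInner_sum_left]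
      refine Finset.sum_congr rfl fun ψ _ => ?_
      show classInner (classInner f (ψ : Γ → ℂ) • (ψ : Γ → ℂ)) f = classInner f (ψ : Γ → ℂ) * conj (classInner f (ψ : Γ → ℂ))
      rw [classInner_smul_left, ← classInner_comm f (ψ : Γ → ℂ)]
    rw [hfne] at h1
    simp only [hk, map_intCast] at h1
    exact_mod_cast h1.symm
  -- the four constituents
  have hcoef : ∀ ν : H →* ℂˣ, ν tH = 1 →
      ∑ ψ, e ψ * M ψ ν = classInner θ (fun h => (ν h : ℂ)) - classInner θ (fun h => ((ν * sH) h : ℂ)) := by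
    intro ν _
    have : ∀ μ : H →* ℂˣ, ∑ ψ, e ψ * mC ψ μ = classInner θ (fun h => (μ h : ℂ)) := by
      intro μ
      simp only [mC, ← classInner_smul_left, ← classInner_sum_left]
      congr 1
      funext h
      simp only [Finset.sum_apply, Pi.smul_apply, smul_eq_mul, R, hfexp, hfH]
    simp only [M, mul_sub, Finset.sum_sub_distrib, this]
  have hget : ∀ ν : H →* ℂˣ, ν tH = 1 → classInner θ (fun h => (ν h : ℂ)) ≠ 0 → ν ≠ 1 →
      ∃ ψ, k ψ ≠ 0 ∧ M ψ ν ≠ 0 ∧ ψ ≠ oneChar := by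
    intro ν hν h0 hν1
    have hz : classInner θ (fun h => ((ν * sH) h : ℂ)) = 0 := by
      have hts : ∀ μ : H →* ℂˣ, μ tH = 1 → μ ≠ ν * sH := fun μ hμ h => by
        have := congrArg (fun f : H →* ℂˣ => (f tH : ℂ)) h
        simp only [MonoidHom.mul_apply, hν, hμ, one_mul, Units.val_one, hsH] at this
        rw [hsn t htL] at this
        norm_num at this
      rw [hθν, if_neg (hts _ (by simp [tH, hΛt, hΜt])), if_neg (hts _ hΛt), if_neg (hts _ hΜt),
        if_neg (hts _ rfl)]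
      simp
    have := hcoef ν hν
    rw [hz, sub_zero] at this
    obtain ⟨ψ, -, hψ⟩ := Finset.exists_ne_zero_of_sum_ne_zero (this.trans_ne h0)
    refine ⟨ψ, fun e0 => hψ (by rw [hk, e0, Int.cast_zero, zero_mul]), right_ne_zero_of_mul hψ, ?_⟩
    rintro rfl
    have h1 : M oneChar 1 ≠ 0 := by
      have e1 : mC oneChar 1 = 1 := by
        have := inner_hom (1 : H →* ℂˣ) 1
        rwa [if_pos rfl] at this
      have e2 : mC oneChar (1 * sH) = 0 := by
        have := inner_hom (1 : H →* ℂˣ) (1 * sH)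
        rwa [if_neg] at this
        intro h
        have := congrArg (fun f : H →* ℂˣ => (f tH : ℂ)) h
        simp only [MonoidHom.mul_apply, MonoidHom.one_apply, one_mul, Units.val_one, hsH] at this
        rw [hsn t htL] at this
        norm_num at this
      simp only [M, e1, e2, sub_zero, ne_eq, one_ne_zero, not_false_eq_true]
    exact right_ne_zero_of_mul hψ ((hsingle oneChar 1 rfl h1).2 ν hν hν1)
  have hcΛ : classInner θ (fun h => (Λ h : ℂ)) ≠ 0 := by
    rw [hθν]; simp [hΛΜ1, hne.symm, hΛ.symm]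
  have hcΜ : classInner θ (fun h => (Μ h : ℂ)) ≠ 0 := by
    rw [hθν]; simp [hΛΜ2, hne, hΜ.symm]
  have hcΛΜ : classInner θ (fun h => ((Λ * Μ) h : ℂ)) ≠ 0 := by
    rw [hθν]; simp [hΛΜ1.symm, hΛΜ2.symm, hmul.symm]
  have htΛΜ : (Λ * Μ) tH = 1 := by simp [tH, hΛt, hΜt]
  obtain ⟨a, ha0, haM, ha1⟩ := hget Λ hΛt hcΛ hΛ
  obtain ⟨b, hb0, hbM, hb1⟩ := hget Μ hΜt hcΜ hΜ
  obtain ⟨c, hc0, hcM, hc1⟩ := hget (Λ * Μ) htΛΜ hcΛΜ hmul
  have hab : a ≠ b := fun h => haM (h ▸ (hsingle b Μ hΜt hbM).2 Λ hΛt hne)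
  have hac : a ≠ c := fun h => haM (h ▸ (hsingle c _ htΛΜ hcM).2 Λ hΛt hΛΜ1.symm)
  have hbc : b ≠ c := fun h => hbM (h ▸ (hsingle c _ htΛΜ hcM).2 Μ hΜt hΛΜ2.symm)
  have hone : k oneChar = 1 := by
    have h1 : e oneChar = 1 := by
      rw [heθ]
      change classInner θ (fun h : H => ((1 : H →* ℂˣ) h : ℂ)) = 1
      rw [hθν, if_neg hmul, if_neg hΛ, if_neg hΜ, if_pos rfl]
      simp
    rw [hk] at h1
    exact_mod_cast h1
  set S : Finset (IrrCharacter Γ) := {oneChar, a, b, c} with hS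
  have hsum4 : ∀ {β : Type} [AddCommMonoid β] (F : IrrCharacter Γ → β),
      ∑ x ∈ S, F x = F oneChar + (F a + (F b + F c)) := by
    intro β _ F
    rw [hS, Finset.sum_insert (by simp [ha1.symm, hb1.symm, hc1.symm]), Finset.sum_insert (by simp [hab, hac]),
      Finset.sum_pair hbc]
  rw [← Finset.sum_add_sum_compl S, hsum4, hone] at hsq
  have hrest0 : 0 ≤ ∑ ψ ∈ Sᶜ, k ψ * k ψ := Finset.sum_nonneg fun ψ _ => mul_self_nonneg _
  have hA := mul_self_pos.2 ha0
  have hB := mul_self_pos.2 hb0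
  have hC := mul_self_pos.2 hc0
  have hk2 : ∀ ψ ∈ Sᶜ, k ψ = 0 := fun ψ hψ => mul_self_eq_zero.1
    ((Finset.sum_eq_zero_iff_of_nonneg fun φ _ => mul_self_nonneg (k φ)).1 (by omega) ψ hψ)
  have hkey : ∀ F : IrrCharacter Γ → ℂ, ∑ ψ, e ψ * F ψ =
      F oneChar + ((k a : ℂ) * F a + ((k b : ℂ) * F b + (k c : ℂ) * F c)) := by
    intro F
    rw [← Finset.sum_add_sum_compl S, hsum4, Finset.sum_eq_zero (s := Sᶜ) fun ψ hψ => ?_, add_zero, hk, hk, hk,
      hk, hone, Int.cast_one, one_mul]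
    rw [hk, hk2 ψ hψ, Int.cast_zero, zero_mul]
  -- degrees
  let d : IrrCharacter Γ → ℕ := fun ψ => charDegree (ψ : Γ → ℂ)
  have hd : ∀ ψ : IrrCharacter Γ, (ψ : Γ → ℂ) 1 = (d ψ : ℂ) := fun ψ => apply_one (isCharacter_of_irr ψ.2)
  have hsum1 : (1 : ℂ) + ((k a * d a : ℤ) : ℂ) + ((k b * d b : ℤ) : ℂ) + ((k c * d c : ℤ) : ℂ) = 0 := by
    have h1 := hfexp 1
    rw [hkey, show f 1 = 0 by simp [f, indFun_apply_one, θ], hd a, hd b, hd c, oneChar_apply] at h1
    push_cast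
    linear_combination h1
  -- the class product
  have hprod : ∀ y : H, θ y ≠ 0 →
      ∑ ψ : IrrCharacter Γ, conj ((ψ : Γ → ℂ) t) ^ 2 * (ψ : Γ → ℂ) y / (ψ : Γ → ℂ) 1 = 0 := by
    intro y hy
    have h := CfsgLib.BrauerReynolds.card_pairs t (y : Γ)
    have : IsEmpty {b : Γ // IsConj b t ∧ IsConj (b⁻¹ * (y : Γ)) t} := by
      refine ⟨fun ⟨b, hb1, hb2⟩ => ?_⟩
      obtain ⟨g, rfl⟩ := isConj_iff.1 hb1.symm
      obtain ⟨g', hg'⟩ := isConj_iff.1 hb2.symm
      have hn : ∀ g : Γ, g * t * g⁻¹ ∉ L := fun g hg => htL (by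
        haveI := Subgroup.normal_of_index_eq_two hidx
        have := Subgroup.Normal.conj_mem inferInstance _ hg g⁻¹
        simpa [mul_assoc] using this)
      have hyL : (y : Γ) ∈ L := by
        have h1 : (y : Γ) = g * t * g⁻¹ * (g' * t * g'⁻¹) := by rw [hg', mul_inv_cancel_left]
        rw [h1, hL2]
        exact iff_of_false (hn g) (hn g')
      set B := g * t * g⁻¹ with hB
      have hBB : B * B = 1 := by
        rw [hB, show g * t * g⁻¹ * (g * t * g⁻¹) = g * (t * t) * g⁻¹ by group, ht2, mul_one, mul_inv_cancel]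
      have hB2 : B⁻¹ * (y : Γ) * (B⁻¹ * y) = 1 := by
        rw [← hg', show g' * t * g'⁻¹ * (g' * t * g'⁻¹) = g' * (t * t) * g'⁻¹ by group, ht2, mul_one,
          mul_inv_cancel]
      have hinv : B * (y : Γ) * B⁻¹ = (y : Γ)⁻¹ := by
        rw [inv_eq_of_mul_eq_one_right hBB] at hB2 ⊢
        calc B * (y : Γ) * B = B * (y : Γ) * (B * y) * (y : Γ)⁻¹ := by group
          _ = _ := by rw [hB2, one_mul]
      -- an element of odd order which is real is trivial
      have hBn : B ∉ L := hn g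
      have hBt : B * t ∈ L := (hL2 _ _).2 (iff_of_false hBn htL)
      have hyt := (hH y).1 y.2
      have hl : B * t * (y : Γ) * (B * t)⁻¹ = (y : Γ)⁻¹ := by
        rw [show B * t * (y : Γ) * (B * t)⁻¹ = B * (t * y * t⁻¹) * B⁻¹ by group, ← hyt, mul_inv_cancel_right,
          hinv]
      have hy2 : (B * t) ^ 2 * (y : Γ) * ((B * t) ^ 2)⁻¹ = y := by
        rw [pow_two, show B * t * (B * t) * (y : Γ) * (B * t * (B * t))⁻¹ =
          B * t * (B * t * (y : Γ) * (B * t)⁻¹) * (B * t)⁻¹ by group, hl, ← conj_inv, hl, inv_inv]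
      have hcomm : Commute (B * t) (y : Γ) := by
        have ho : Odd (orderOf (B * t)) := hodd.of_dvd_nat (L.orderOf_dvd_natCard hBt)
        obtain ⟨i, hi⟩ := exists_pow_eq_self_of_coprime (x := B * t) (n := 2) (Nat.coprime_two_left.2 ho)
        rw [← hi]
        exact Commute.pow_left (mul_inv_eq_iff_eq_mul.1 hy2) i
      rw [hcomm.eq, mul_inv_cancel_right] at hl
      have hy1 : (y : Γ) ^ 2 = 1 := by rw [pow_two]; nth_rw 2 [hl]; exact mul_inv_cancel _
      have : y = 1 := Subtype.ext (by simpa using hoddpow y hyL 2 hy1 even_two)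
      exact hy (by simp [θ, this])
    rw [Nat.card_of_isEmpty, Nat.cast_zero, zero_mul, eq_comm, mul_eq_zero] at h
    exact h.resolve_left (Nat.cast_ne_zero.2 Nat.card_pos.ne')
  have htreal : ∀ ψ : IrrCharacter Γ, conj ((ψ : Γ → ℂ) t) = (ψ : Γ → ℂ) t := fun ψ => by
    rw [← apply_inv (isCharacter_of_irr ψ.2), htinv]
  have hsum2 : ∑ ψ, e ψ * (((ψ : Γ → ℂ) t) ^ 2 / (ψ : Γ → ℂ) 1) = 0 := by
    have h1 : ∑ h : H, θ h * conj (∑ ψ : IrrCharacter Γ,
        conj ((ψ : Γ → ℂ) t) ^ 2 * (ψ : Γ → ℂ) h / (ψ : Γ → ℂ) 1) = 0 := by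
      refine Finset.sum_eq_zero fun h _ => ?_
      by_cases hh : θ h = 0
      · rw [hh, zero_mul]
      · rw [hprod h hh, map_zero, mul_zero]
    simp only [map_sum, Finset.mul_sum] at h1
    rw [Finset.sum_comm] at h1
    have h2 : ∀ ψ : IrrCharacter Γ, N * (e ψ * (((ψ : Γ → ℂ) t) ^ 2 / (ψ : Γ → ℂ) 1)) =
        ∑ h : H, θ h * conj (conj ((ψ : Γ → ℂ) t) ^ 2 * (ψ : Γ → ℂ) h / (ψ : Γ → ℂ) 1) := by
      intro ψ
      rw [heθ, classInner_eq, ← mul_assoc, ← mul_assoc, ← hN, mul_inv_cancel₀ hN0, one_mul, Finset.sum_mul]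
      refine Finset.sum_congr rfl fun h _ => ?_
      rw [map_div₀, map_mul, map_pow, htreal ψ, htreal ψ, hd, Complex.conj_natCast]
      simp only [R]
      ring
    simp only [← h2, ← Finset.mul_sum] at h1
    exact (mul_eq_zero.1 h1).resolve_left hN0
  have hta : ∀ ψ ν, ν tH = 1 → M ψ ν ≠ 0 → ((ψ : Γ → ℂ) t) ^ 2 = 1 := fun ψ ν hν h => by
    rw [hval ψ ν hν h]; rcases (hsingle ψ ν hν h).1 with e | e <;> simp [e]
  rw [hkey, hta a Λ hΛt haM, hta b Μ hΜt hbM, hta c _ htΛΜ hcM, oneChar_apply, oneChar_apply, hd a, hd b,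
    hd c] at hsum2
  have hk1 : ∀ x, k x * k x = 1 → ((k x : ℂ))⁻¹ = k x := fun x h => by
    rcases mul_self_eq_one_iff.1 h with e | e <;> simp [e]
  -- linear constituents
  have hlin : ∀ ψ, ψ ≠ oneChar → k ψ ≠ 0 → d ψ ≠ 1 := by
    intro ψ hψ1 h0 h1
    obtain ⟨φ, hφ⟩ := CfsgLib.Clifford.exists_hom_of_linear (isCharacter_of_irr ψ.2)
      (by rw [hd, h1, Nat.cast_one])
    have hφL : ∀ x ∈ L, φ x = 1 := by
      have : ⁅L, L⁆ ≤ φ.toHomUnits.ker := Subgroup.commutator_le.2 fun x _ y _ => by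
        rw [MonoidHom.mem_ker, map_commutatorElement, commutatorElement_eq_one_iff_mul_comm]
        exact mul_comm _ _
      rw [hperf] at this
      intro x hx
      have h2 := congrArg Units.val (MonoidHom.mem_ker.1 (this hx))
      rwa [MonoidHom.coe_toHomUnits, Units.val_one] at h2
    have hψv : ∀ x, (ψ : Γ → ℂ) x = φ x := fun x => congrFun hφ x
    have htv : φ t = 1 ∨ φ t = -1 := mul_self_eq_one_iff.1 (by rw [← map_mul, ht2, map_one])
    have hout : ∀ x ∉ L, φ x = φ t := fun x hx => by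
      have h2 : x * t ∈ L := (hL2 _ _).2 (iff_of_false hx htL)
      calc φ x = φ (x * t * t) := by rw [mul_assoc, ht2, mul_one]
        _ = _ := by rw [map_mul, hφL _ h2, one_mul]
    rcases htv with e1 | e1
    · exact hψ1 (Subtype.ext (funext fun x => by
        rw [hψv, oneChar_apply]
        by_cases hx : x ∈ L
        · exact hφL x hx
        · rw [hout x hx, e1]))
    · apply h0
      have h2 : e ψ = 0 := by
        rw [heθ, show R ψ = fun h => (sH h : ℂ) from funext fun h => by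
          rw [hsH]
          show (ψ : Γ → ℂ) h = _
          rw [hψv]
          by_cases hx : (h : Γ) ∈ L
          · rw [hφL _ hx, hsL _ hx]
          · rw [hout _ hx, e1, hsn _ hx], hθν]
        have hts : ∀ μ : H →* ℂˣ, μ tH = 1 → μ ≠ sH := fun μ hμ h => by
          have := congrArg (fun f : H →* ℂˣ => (f tH : ℂ)) h
          simp only [hμ, Units.val_one, hsH] at this
          rw [hsn t htL] at this
          norm_num at this
        rw [if_neg (hts _ htΛΜ), if_neg (hts _ hΛt), if_neg (hts _ hΜt), if_neg (hts _ rfl)]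
        simp
      rw [hk] at h2
      exact_mod_cast h2
  have hne1 : ∀ ψ, ψ ≠ oneChar → k ψ ≠ 0 → k ψ * k ψ = 1 → k ψ * (d ψ : ℤ) ≠ -1 ∧ k ψ * (d ψ : ℤ) ≠ 0 := by
    intro ψ h1 h0 hsq'
    have hpos : 0 < d ψ := charDegree_pos ψ.2
    have hl := hlin ψ h1 h0
    rcases mul_self_eq_one_iff.1 hsq' with e | e <;> constructor <;> rw [e] <;> omega
  have ea : k a * k a = 1 := by omega
  have eb : k b * k b = 1 := by omega
  have ec : k c * k c = 1 := by omega
  obtain ⟨za, za0⟩ := hne1 a ha1 ha0 ea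
  obtain ⟨zb, zb0⟩ := hne1 b hb1 hb0 eb
  obtain ⟨zc, zc0⟩ := hne1 c hc1 hc0 ec
  refine four_identity za zb zc za0 zb0 zc0 hsum1 ?_
  push_cast
  rw [mul_inv, mul_inv, mul_inv, hk1 a ea, hk1 b eb, hk1 c ec]
  linear_combination hsum2

end CfsgLib.GHFour
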